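import Cfsg.Agent.R2.Spec.X2.LCtx
import Cfsg.Agent.H360.Iso.Alt
import Cfsg.Agent.H360.Iso.ElimE
import Cfsg.Agent.H360.Iso.ElimF

/-!
# Elimination in the window of `PSL_3(q)`: alternating groups, exceptional groups (helper16)
-/

set_option autoImplicit false

namespace Cfsg.Agent.R2.Spec.X2

open Cfsg Cfsg.Agent.H360.Iso Cfsg.Agent.H437.Iso Equiv

section

variable {T : Type*} [Group T] {n : ℕ}

theorem LWin.not_isAlternating (h : LWin T n) : ¬ IsAlternating T := by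
  rintro ⟨m, hm, ⟨e⟩⟩
  have h' := h.congr e
  have hb := h.big
  have hnm := alt_row h'.iso
  obtain ⟨k, hk⟩ := h.iso.odd
  have h3 := h.iso.not_three_dvd
  obtain ⟨g, hg⟩ := H380.AltSpec.exists_orderOf (n := m) {3, n - 6} (by simp; omega) (by
    intro a ha
    simp only [Multiset.insert_eq_cons, Multiset.mem_cons, Multiset.mem_singleton] at ha
    rcases ha with rfl | rfl
    · norm_num
    · omega) (by
    simp only [Multiset.insert_eq_cons, Multiset.sum_cons, Multiset.sum_singleton, Multiset.card_cons,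
      Multiset.card_singleton]
    exact ⟨k, by omega⟩)
  have hg2 : orderOf g = 3 * (n - 6) := by
    rw [hg]
    simp only [Multiset.insert_eq_cons, Multiset.lcm_cons, Multiset.lcm_singleton, normalize_eq]
    change Nat.lcm 3 (n - 6) = _
    refine Nat.Coprime.lcm_eq_mul ?_
    rw [Nat.Prime.coprime_iff_not_dvd Nat.prime_three]
    omega
  exact h'.not_above ⟨g, hg2⟩ (by omega)

/-- **Ree groups** -/
theorem LWin.not_isoRee (h : LWin T n) : ¬ Lie.IsoRee T := by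
  rintro ⟨K, _, _, m, hm, hK, ⟨e⟩⟩
  have h' := h.congr e
  have hb := h.big
  have hsp := S1159.result (K := K) hm hK
  obtain ⟨t, ht, ht3⟩ : ∃ t, 3 ^ m = t ∧ 3 ≤ t := ⟨3 ^ m, rfl, by
    calc 3 = 3 ^ 1 := by norm_num
      _ ≤ 3 ^ m := Nat.pow_le_pow_right (by norm_num) hm⟩
  have e1 : 3 ^ (2 * m + 1) = 3 * t ^ 2 := by
    rw [← ht, ← pow_mul, pow_succ]
    ring
  have e2 : 3 ^ (m + 1) = 3 * t := by
    rw [← ht]
    ring
  have hto : Odd t := by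
    rw [← ht]
    exact (by decide : Odd 3).pow
  rw [e1, e2] at hsp
  have hexi : ∀ d, (d ∣ 6 ∨ d ∣ 9 ∨ d ∣ 3 * t ^ 2 - 1 ∨ d ∣ (3 * t ^ 2 + 1) / 2 ∨ d ∣ 3 * t ^ 2 - 3 * t + 1 ∨
      d ∣ 3 * t ^ 2 + 3 * t + 1) → ∃ g : ↥(Cfsg.Lie.twistedG2 K (3 ^ m)), orderOf g = d := fun d hd => (hsp d).2 hd
  obtain ⟨a, ha⟩ := hto
  have ht2 : t ^ 2 = 4 * a ^ 2 + 4 * a + 1 := by rw [ha]; ring
  have hC := hexi _ (Or.inr (Or.inr (Or.inr (Or.inr (Or.inl dvd_rfl)))))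
  have hB := hexi _ (Or.inr (Or.inr (Or.inr (Or.inr (Or.inr dvd_rfl)))))
  have hA := hexi _ (Or.inr (Or.inr (Or.inl dvd_rfl)))
  have hD := hexi _ (Or.inr (Or.inr (Or.inr (Or.inl dvd_rfl))))
  have htt : 3 * t ≤ t ^ 2 := by nlinarith
  obtain ⟨r, hr, hrn⟩ := h'.iso.exists_prime
  rcases (hsp n).1 h'.iso.elt with h1 | h1 | h1 | h1 | h1 | h1
  · have := Nat.le_of_dvd (by norm_num) h1
    omega
  · have := Nat.le_of_dvd (by norm_num) h1
    omega
  · refine h'.iso.not_two_dvd (dvd_trans ?_ (h'.iso.dvd_of_elt hA hr hrn (hrn.trans h1)))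
    exact ⟨6 * a ^ 2 + 6 * a + 1, by omega⟩
  · refine h'.iso.not_two_dvd (dvd_trans ?_ (h'.iso.dvd_of_elt hD hr hrn (hrn.trans h1)))
    exact ⟨3 * a ^ 2 + 3 * a + 1, by omega⟩
  · have h2 := Nat.dvd_antisymm h1 (h'.iso.dvd_of_elt hC hr hrn (hrn.trans h1))
    exact h'.not_above hB (by omega)
  · have h2 := Nat.dvd_antisymm h1 (h'.iso.dvd_of_elt hB hr hrn (hrn.trans h1))
    refine h'.not_odd hC ?_ ?_ ?_
    · refine ⟨6 * a ^ 2 + 3 * a, ?_⟩
      have : 3 * t ^ 2 = 12 * a ^ 2 + 12 * a + 3 := by omega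
      have h3 : 3 * t = 6 * a + 3 := by omega
      omega
    · rw [h2]
      have h4 : 9 * t < 3 * t ^ 2 + 1 := by nlinarith
      omega
    · rw [h2]
      omega

/-- **Suzuki groups** -/
theorem LWin.not_isoSuzuki (h : LWin T n) : ¬ Lie.IsoSuzuki T := by
  intro hS
  obtain ⟨F, _, _, m, hm, hF, ⟨e⟩⟩ := hS
  obtain ⟨i⟩ := Cfsg.Agent.OddCyclic.ClaimC.SzIso.iso hm hF
  have h' : LWin (Cfsg.Sz F m) n := h.congr (e.trans i.symm)
  have hb := h.big
  obtain ⟨hs, hA, hB, hC⟩ := Cfsg.Agent.H372.SzSpec.spec (F := F) hm hF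
  obtain ⟨w, hw, hw2⟩ : ∃ w, 2 ^ m = w ∧ 2 ≤ w := ⟨2 ^ m, rfl, by
    calc 2 = 2 ^ 1 := by norm_num
      _ ≤ 2 ^ m := Nat.pow_le_pow_right (by norm_num) hm⟩
  have e1 : 2 ^ (2 * m + 1) = 2 * w ^ 2 := by
    rw [← hw, ← pow_mul, pow_succ]
    ring
  have e2 : 2 ^ (m + 1) = 2 * w := by
    rw [← hw]
    ring
  rw [e1, e2] at hs hB hC
  rw [e1] at hA
  have hww : 2 * w ≤ w ^ 2 := by nlinarith
  obtain ⟨x, hx⟩ := h'.iso.elt
  obtain ⟨r, hr, hrn⟩ := h'.iso.exists_prime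
  have hso := hs x (by rw [hx]; exact h'.iso.odd)
  rw [hx] at hso
  rcases hso with h1 | h1 | h1
  · have h2 := Nat.dvd_antisymm h1 (h'.iso.dvd_of_elt hA hr hrn (hrn.trans h1))
    exact h'.not_above hB (by omega)
  · have h2 := Nat.dvd_antisymm h1 (h'.iso.dvd_of_elt hB hr hrn (hrn.trans h1))
    exact h'.not_odd hA ⟨w ^ 2 - 1, by omega⟩ (by omega) (by omega)
  · have h2 := Nat.dvd_antisymm h1 (h'.iso.dvd_of_elt hC hr hrn (hrn.trans h1))
    exact h'.not_above hB (by omega)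

theorem LWin.not_isoChevG2 (h : LWin T n) : ¬ Lie.IsoChevG2 T := by
  rintro ⟨F, _, _, -, ⟨e⟩⟩
  have h' := h.congr e
  have hb := h.big
  have hu : 2 ≤ Nat.card F := Finite.one_lt_card
  have h6 := g2_order6 (F := F)
  have h3 := g2_order3 (F := F)
  obtain ⟨j, hj⟩ := Nat.even_mul_succ_self (Nat.card F)
  have hj' : Nat.card F ^ 2 + Nat.card F = Nat.card F * (Nat.card F + 1) := by ring
  have h4 : Nat.card F ≤ Nat.card F ^ 2 := Nat.le_self_pow (by norm_num) _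
  rcases g2_row h'.iso with h1 | h1
  · set u := Nat.card F with hud
    have hu4 : 4 ≤ u := by
      by_contra hcon
      have : u = 2 ∨ u = 3 := by omega
      rcases this with h2 | h2 <;> rw [h2] at h1 <;> norm_num at h1 <;> omega
    have h5 : 4 * u ≤ u ^ 2 := by nlinarith
    exact h'.not_odd h6 ⟨j - u, by omega⟩ (by omega) (by omega)
  · exact h'.not_above h3 (by omega)

theorem LWin.not_twelve (h : LWin T n) {u : ℕ} (hu : 2 ≤ u) (hn : n = u ^ 4 - u ^ 2 + 1)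
    (hE : ∃ x : T, orderOf x = (u ^ 3 - 1) * (u + 1)) : False := by
  refine h.not_above hE ?_
  obtain ⟨v, rfl⟩ : ∃ v, u = v + 2 := ⟨u - 2, by omega⟩
  have e1 : (v + 2) ^ 3 - 1 = v ^ 3 + 6 * v ^ 2 + 12 * v + 7 := by
    have : (v + 2) ^ 3 = v ^ 3 + 6 * v ^ 2 + 12 * v + 7 + 1 := by ring
    omega
  have e2 : (v + 2) ^ 4 - (v + 2) ^ 2 = v ^ 4 + 8 * v ^ 3 + 23 * v ^ 2 + 28 * v + 12 := by
    have : (v + 2) ^ 4 = v ^ 4 + 8 * v ^ 3 + 23 * v ^ 2 + 28 * v + 12 + (v + 2) ^ 2 := by ring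
    omega
  rw [hn, e1, e2]
  have e3 : (v ^ 3 + 6 * v ^ 2 + 12 * v + 7) * (v + 2 + 1) = v ^ 4 + 9 * v ^ 3 + 30 * v ^ 2 + 43 * v + 21 := by ring
  rw [e3]
  have h3 : 0 ≤ v ^ 3 := Nat.zero_le _
  nlinarith [Nat.zero_le (v ^ 3), Nat.zero_le (v ^ 2)]

theorem LWin.not_isoF4 (h : LWin T n) : ¬ Lie.IsoF4 T := by
  rintro ⟨F, _, _, ⟨e⟩⟩
  have h' := h.congr e
  have hu : 2 ≤ Nat.card F := Finite.one_lt_card
  rcases f4_row h'.iso with h1 | ⟨he, h1⟩
  · exact h'.not_twelve hu h1 f4_orderA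
  · refine h'.not_above (f4_orderA (F := F)) ?_
    rw [h1]
    obtain ⟨v, hv⟩ : ∃ v, Nat.card F = v + 2 := ⟨Nat.card F - 2, by omega⟩
    rw [hv]
    have e1 : (v + 2) ^ 3 - 1 = v ^ 3 + 6 * v ^ 2 + 12 * v + 7 := by
      have : (v + 2) ^ 3 = v ^ 3 + 6 * v ^ 2 + 12 * v + 7 + 1 := by ring
      omega
    rw [e1]
    nlinarith [sq_nonneg (v ^ 2)]

theorem LWin.not_iso3D4 (h : LWin T n) : ¬ Lie.Iso3D4 T := by
  rintro ⟨K, _, _, q, hq, hK, ⟨e⟩⟩
  have h' := h.congr e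
  exact h'.not_twelve hq.two_le (d4_row hq hK h'.iso) (d4_orderA hq hK)

theorem LWin.not_isoE6 (h : LWin T n) : ¬ Lie.IsoChevE6 T := by
  rintro ⟨F, _, _, ⟨e⟩⟩
  have h' := h.congr e
  have hb := h.big
  have hu : 2 ≤ Nat.card F := Finite.one_lt_card
  have h1 := Cfsg.Agent.H366.Iso.e6_row h'.iso
  obtain ⟨x, hx⟩ := Cfsg.Agent.H366.Iso.e6_orderA (F := F)
  set u := Nat.card F with hud
  set g := Nat.gcd 3 (u - 1) with hg
  have hg0 : 0 < g := Nat.gcd_pos_of_pos_left _ (by norm_num)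
  have hgu : g ∣ u - 1 := Nat.gcd_dvd_right _ _
  have hgd : g ∣ (u ^ 5 - 1) * (u + 1) := (hgu.trans (Nat.sub_one_dvd_pow_sub_one u 5)).mul_right _
  have hxe : orderOf x * g = (u ^ 5 - 1) * (u + 1) := by rw [hx]; exact Nat.div_mul_cancel hgd
  obtain ⟨U, hU⟩ : ∃ U : ℤ, U = (u : ℤ) := ⟨_, rfl⟩
  obtain ⟨G, hG⟩ : ∃ G : ℤ, G = (g : ℤ) := ⟨_, rfl⟩
  have hU2 : 2 ≤ U := by omega
  have hG0 : 0 < G := by omega
  have e1 : (n : ℤ) * G = U ^ 6 + U ^ 3 + 1 := by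
    rw [hG, hU]
    exact_mod_cast h1
  have e2 : (orderOf x : ℤ) * G = (U ^ 5 - 1) * (U + 1) := by
    have h2 : ((orderOf x * g : ℕ) : ℤ) = (((u ^ 5 - 1) * (u + 1) : ℕ) : ℤ) := by rw [hxe]
    rw [Nat.cast_mul, Nat.cast_mul, Nat.cast_sub (Nat.one_le_pow _ _ (by omega))] at h2
    push_cast at h2
    rw [hG, hU]
    exact h2
  have hU5 : 2 * U ^ 4 ≤ U ^ 5 := by nlinarith [pow_pos (by linarith : (0:ℤ) < U) 4]
  have hU4 : 2 * U ^ 3 ≤ U ^ 4 := by nlinarith [pow_pos (by linarith : (0:ℤ) < U) 3]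
  have hU22 : 4 ≤ U ^ 2 := by nlinarith
  have hU3 : 4 * U ≤ U ^ 3 := by nlinarith
  refine h'.above (m := orderOf x) (c := G) (A := U ^ 5 - U ^ 3 - U - 2) ⟨x, rfl⟩ hG0 (by linarith) ?_
  linear_combination e2 - e1

theorem LWin.not_isoE8 (h : LWin T n) : ¬ Lie.IsoE8 T := by
  rintro ⟨F, _, _, ⟨e⟩⟩
  have h' := h.congr e
  have hu : 2 ≤ Nat.card F := Finite.one_lt_card
  have c15 := Cfsg.Agent.H414.Iso.cast15 hu
  have c20 := Cfsg.Agent.H414.Iso.cast20 hu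
  have c24 := Cfsg.Agent.H414.Iso.cast24 hu
  have c30 := Cfsg.Agent.H414.Iso.cast30 hu
  have E24 := Cfsg.Agent.H414.Iso.e8_order24 (F := F)
  have E30 := Cfsg.Agent.H414.Iso.e8_order30 (F := F)
  have hrow := Cfsg.Agent.H414.Iso.e8_row h'.iso
  obtain ⟨U, hU⟩ : ∃ U : ℤ, U = (Nat.card F : ℤ) := ⟨_, rfl⟩
  have hU2 : 2 ≤ U := by rw [hU]; exact_mod_cast hu
  have p1 : 0 < U := by linarith
  have hU3 : 2 * U ^ 2 ≤ U ^ 3 := by nlinarith [pow_pos p1 2]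
  have hU4 : 2 * U ^ 3 ≤ U ^ 4 := by nlinarith [pow_pos p1 3]
  have hU5 : 2 * U ^ 4 ≤ U ^ 5 := by nlinarith [pow_pos p1 4]
  have hU6 : 2 * U ^ 5 ≤ U ^ 6 := by nlinarith [pow_pos p1 5]
  have hU7 : 2 * U ^ 6 ≤ U ^ 7 := by nlinarith [pow_pos p1 6]
  have hU8 : 2 * U ^ 7 ≤ U ^ 8 := by nlinarith [pow_pos p1 7]
  have hU22 : 2 * U ≤ U ^ 2 := by nlinarith
  rw [← hU] at c15 c20 c24 c30
  have odd24 : Odd (Nat.card F ^ 8 - Nat.card F ^ 4 + 1) := by
    have h2 : Odd (((Nat.card F ^ 8 - Nat.card F ^ 4 + 1 : ℕ) : ℤ)) := by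
      rw [c24]
      have h3 : Even (U ^ 4 * (U ^ 4 - 1)) := by
        rcases Int.even_or_odd (U ^ 4) with h4 | h4
        · exact h4.mul_right _
        · exact (h4.sub_odd odd_one).mul_left _
      have h4 : U ^ 8 - U ^ 4 + 1 = U ^ 4 * (U ^ 4 - 1) + 1 := by ring
      rw [h4]
      exact h3.add_one
    exact_mod_cast h2
  rcases hrow with h1 | h1 | h1 | h1
  · refine h'.not_above E30 ?_
    have h2 := congrArg (Nat.cast : ℕ → ℤ) h1
    rw [c15] at h2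
    refine Int.ofNat_lt.1 ?_
    rw [c30, h2]
    linarith
  · refine h'.not_above E30 ?_
    have h2 := congrArg (Nat.cast : ℕ → ℤ) h1
    rw [c20] at h2
    refine Int.ofNat_lt.1 ?_
    rw [c30, h2]
    linarith
  · refine h'.not_above E30 ?_
    have h2 := congrArg (Nat.cast : ℕ → ℤ) h1
    rw [c24] at h2
    refine Int.ofNat_lt.1 ?_
    rw [c30, h2]
    linarith
  · have h2 := congrArg (Nat.cast : ℕ → ℤ) h1
    rw [c30] at h2
    refine h'.not_odd E24 odd24 ?_ ?_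
    · refine Int.ofNat_lt.1 ?_
      rw [Nat.cast_mul, c24, h2]
      push_cast
      linarith
    · intro h3
      have h4 := congrArg (Nat.cast : ℕ → ℤ) h3
      rw [c24, h2] at h4
      linarith

theorem LWin.not_isoE7 (h : LWin T n) : ¬ Lie.IsoE7 T := by
  rintro ⟨F, _, _, ⟨e⟩⟩
  have h' := h.congr e
  have E7 := Cfsg.Agent.H414.Iso.e7_order7 (F := F)
  have E9 := Cfsg.Agent.H414.Iso.e7_order9 (F := F)
  rcases Cfsg.Agent.H414.Iso.e7_row h'.iso with ⟨hu, h1 | h1⟩ | ⟨hu, h1 | h1⟩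
  · rw [hu] at E7
    exact h'.not_above E7 (by rw [h1]; norm_num)
  · rw [hu] at E9
    exact h'.not_odd E9 (by decide) (by rw [h1]; norm_num) (by rw [h1]; norm_num)
  · rw [hu] at E7
    exact h'.not_above E7 (by rw [h1]; norm_num)
  · rw [hu] at E9
    exact h'.not_odd E9 (by decide) (by rw [h1]; norm_num) (by rw [h1]; norm_num)

end

section

variable {T : Type*} [Group T] {p f q d N E P : ℕ}

/-- small values of `N` -/
theorem LCtx.N_ne_247 (h : LCtx T p f q d N E P) : N ≠ 247 := by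
  intro h1
  have A := h.A
  have hN := A.hN
  rw [h1] at hN
  rcases A.d13 with h2 | h2 <;> rw [h2] at hN
  · have h3 : q < 16 := by nlinarith
    have h4 : 15 < q := by nlinarith
    omega
  · have h3 : q < 27 := by nlinarith
    have h4 : 26 < q := by
      by_contra hcon
      have h5 : q ^ 2 ≤ 26 ^ 2 := Nat.pow_le_pow_left (by omega) 2
      omega
    omega

theorem LCtx.not_iso2E6 (h : LCtx T p f q d N E P) : ¬ Lie.Iso2E6 T := by
  rintro ⟨K, _, _, u, hu, hK, ⟨e⟩⟩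
  have h' := h.win.congr e
  have hb := h.win.big
  have hu2 := hu.two_le
  rcases Cfsg.Agent.H366.Iso.e6t_row hu hK h'.iso with h1 | ⟨-, h1⟩
  · obtain ⟨x, hx⟩ := Cfsg.Agent.H366.Iso.e6t_orderA hu hK
    set g := Nat.gcd 3 (u + 1) with hg
    have hg0 : 0 < g := Nat.gcd_pos_of_pos_left _ (by norm_num)
    have hg3 : g ≤ 3 := Nat.le_of_dvd (by norm_num) (Nat.gcd_dvd_left _ _)
    have hgu : g ∣ u + 1 := Nat.gcd_dvd_right _ _
    have hgd : g ∣ (u ^ 5 + 1) * (u - 1) := (hgu.trans (add_one_dvd_pow_add_one (by decide))).mul_right _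
    have hxe : orderOf x * g = (u ^ 5 + 1) * (u - 1) := by rw [hx]; exact Nat.div_mul_cancel hgd
    have hne2 : u ≠ 2 := by
      intro h2
      rw [h2] at hg
      rw [h2, hg] at h1
      norm_num at h1
      omega
    have h36 : u ^ 3 ≤ u ^ 6 := Nat.pow_le_pow_right (by omega) (by norm_num)
    obtain ⟨U, hU⟩ : ∃ U : ℤ, U = (u : ℤ) := ⟨_, rfl⟩
    obtain ⟨G, hG⟩ : ∃ G : ℤ, G = (g : ℤ) := ⟨_, rfl⟩
    have hU3' : 3 ≤ U := by omega
    have hG0 : 0 < G := by omega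
    have hG3 : G ≤ 3 := by omega
    have e1 : (N : ℤ) * G = U ^ 6 - U ^ 3 + 1 := by
      have h2 : ((N * g : ℕ) : ℤ) = ((u ^ 6 - u ^ 3 + 1 : ℕ) : ℤ) := by rw [h1]
      rw [Nat.cast_mul, Nat.cast_add, Nat.cast_sub h36] at h2
      push_cast at h2
      rw [hG, hU]
      exact h2
    have e2 : (orderOf x : ℤ) * G = (U ^ 5 + 1) * (U - 1) := by
      have h2 : ((orderOf x * g : ℕ) : ℤ) = (((u ^ 5 + 1) * (u - 1) : ℕ) : ℤ) := by rw [hxe]
      rw [Nat.cast_mul, Nat.cast_mul, Nat.cast_sub (by omega : 1 ≤ u)] at h2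
      push_cast at h2
      rw [hG, hU]
      exact h2
    have p1 : 0 < U := by linarith
    have hU6 : 3 * U ^ 5 ≤ U ^ 6 := by nlinarith [pow_pos p1 5]
    have hU5 : 9 * U ^ 3 ≤ U ^ 5 := by
      have h9 : 9 ≤ U ^ 2 := by nlinarith
      calc 9 * U ^ 3 ≤ U ^ 2 * U ^ 3 := mul_le_mul_of_nonneg_right h9 (by positivity)
        _ = U ^ 5 := by ring
    have hU3 : 9 * U ≤ U ^ 3 := by
      have : 9 ≤ U ^ 2 := by nlinarith
      nlinarith
    refine h'.below (m := orderOf x) (c := G) (A := U ^ 5 - U ^ 3 - U + 2) ⟨x, rfl⟩ hG0 (by linarith) ?_ ?_ ?_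
    · linear_combination e2 - e1
    · have h2 : G * (orderOf x : ℤ) = (U ^ 5 + 1) * (U - 1) := by rw [← e2]; ring
      have h3 : G * (N : ℤ) = U ^ 6 - U ^ 3 + 1 := by rw [← e1]; ring
      rw [h2, h3]
      nlinarith
    · have h2 : 4 * (N : ℤ) * G ^ 2 = 4 * G * ((N : ℤ) * G) := by ring
      rw [h2, e1]
      have h6 : 4 * G * (U ^ 6 - U ^ 3 + 1) ≤ 12 * (U ^ 6 - U ^ 3 + 1) := by
        have h3 : 0 ≤ U ^ 6 - U ^ 3 + 1 := by nlinarith
        exact mul_le_mul_of_nonneg_right (by linarith) h3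
      refine h6.trans ?_
      have h7 : 7 * U ^ 3 ≤ U ^ 5 - U ^ 3 - U + 2 := by linarith
      have h8 := pow_le_pow_left₀ (by positivity) h7 2
      have h9 : (7 * U ^ 3) ^ 2 = 49 * U ^ 6 := by ring
      rw [h9] at h8
      have h10 : 0 < U ^ 3 := pow_pos p1 3
      nlinarith [pow_pos p1 6]
  · -- `u = 2`
    have hmod := fun d (hd : d ∣ N) => h.win.mod_dvd hd
    have h17 : Nat.Coprime N 17 := by
      rw [Nat.coprime_comm, Nat.Prime.coprime_iff_not_dvd (by norm_num)]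
      intro hd
      have := hmod 17 hd
      omega
    have h2 : N ∣ 247 := by
      have h3 : N ∣ 17 * 247 := by
        have : 13 * 17 * 19 = 17 * 247 := by norm_num
        rwa [this] at h1
      exact h17.dvd_of_dvd_mul_left h3
    refine h.N_ne_247 ?_
    rcases dvd_cases3 (by norm_num) h2 with h4 | h4 | h4
    · exact h4
    · omega
    · have h6 : N ≤ 82 := by omega
      obtain ⟨k, hk⟩ := h2
      have hk1 : k ≤ 7 := by
        by_contra hcon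
        have : 31 * 8 ≤ N * k := Nat.mul_le_mul hb (by omega)
        omega
      interval_cases k <;> omega

/-- **`²F₄(q)`** -/
theorem LCtx.not_iso2F4 (h : LCtx T p f q d N E P) : ¬ Lie.Iso2F4 T := by
  rintro ⟨K, _, _, m, hm, hK, ⟨e⟩⟩
  have h' := h.win.congr e
  have A := h.A
  obtain ⟨b, hb⟩ : ∃ b, b = 2 ^ m := ⟨_, rfl⟩
  have hb2 : 2 ≤ b := by
    rw [hb]
    calc 2 = 2 ^ 1 := by norm_num
      _ ≤ 2 ^ m := Nat.pow_le_pow_right (by norm_num) hm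
  rcases f4t_row hK hm hb h'.iso with h1 | h1 | h1
  · have hE := f4t_B hK hb
    have hbb : 1 ≤ 2 * b ^ 2 := by nlinarith
    obtain ⟨c, hc⟩ : ∃ c, 2 * b ^ 2 - 1 = 2 * c + 1 := ⟨b ^ 2 - 1, by
      have : 4 ≤ b ^ 2 := by nlinarith
      omega⟩
    have hval : (2 * b ^ 2 - 1) * (2 * b ^ 2 + 2 * b + 1) + 2 * b + 1 = 4 * b ^ 4 + 4 * b ^ 3 := by
      obtain ⟨v, rfl⟩ : ∃ v, b = v + 1 := ⟨b - 1, by omega⟩
      have h3 : 2 * (v + 1) ^ 2 - 1 = 2 * v ^ 2 + 4 * v + 1 := by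
        have : 2 * (v + 1) ^ 2 = 2 * v ^ 2 + 4 * v + 1 + 1 := by ring
        omega
      rw [h3]
      ring
    have hb3 : 4 * b ≤ b ^ 3 := by
      have : 4 ≤ b ^ 2 := by nlinarith
      nlinarith
    have hb4 : 4 * b ^ 2 ≤ b ^ 4 := by
      have h4 : 4 ≤ b ^ 2 := by nlinarith
      calc 4 * b ^ 2 ≤ b ^ 2 * b ^ 2 := Nat.mul_le_mul_right _ h4
        _ = b ^ 4 := by ring
    refine h'.not_odd hE ?_ ?_ ?_
    · rw [hc]
      exact Odd.mul ⟨c, rfl⟩ ⟨b ^ 2 + b, by ring⟩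
    · rw [h1]
      omega
    · rw [h1]
      omega
  · refine h'.not_above (f4t_plus hK hb) ?_
    nlinarith [pow_pos (by linarith : 0 < b) 3]
  · -- `n = t₊ t₋`
    obtain ⟨X, hX⟩ : ∃ X, X = 4 * b ^ 4 := ⟨_, rfl⟩
    have hX64 : 64 ≤ X := by
      rw [hX]
      have : 2 ^ 4 ≤ b ^ 4 := Nat.pow_le_pow_left hb2 4
      omega
    have hn : N + X = X ^ 2 + 1 := by
      have h7 : 16 * b ^ 8 = X ^ 2 := by rw [hX]; ring
      rw [h1, h7, ← hX]
      have : X ≤ X ^ 2 := Nat.le_self_pow (by norm_num) X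
      omega
    obtain ⟨Y, hY⟩ : ∃ Y, X = Y + 1 := ⟨X - 1, by omega⟩
    have hN := A.hN
    rcases A.hd with ⟨h2, -⟩ | ⟨h2, h3⟩
    · rw [h2, one_mul] at hN
      have h6 : q = Y := by
        rw [hY] at hn
        have h7 : q ^ 2 + q = Y ^ 2 + Y := by nlinarith
        rcases Nat.lt_trichotomy q Y with h8 | h8 | h8
        · nlinarith
        · exact h8
        · nlinarith
      -- `q = (2 b² - 1)(2 b² + 1)`
      have h7 : q = (2 * b ^ 2 - 1) * (2 * b ^ 2 + 1) := by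
        obtain ⟨c, hc⟩ : ∃ c, 2 * b ^ 2 = c + 1 := ⟨2 * b ^ 2 - 1, by
          have : 4 ≤ b ^ 2 := by nlinarith
          omega⟩
        have h8 : 4 * b ^ 4 = (2 * b ^ 2) ^ 2 := by ring
        rw [hc, Nat.add_sub_cancel]
        rw [h8, hc] at hX
        have h9 : (c + 1) ^ 2 = c * (c + 1 + 1) + 1 := by ring
        omega
      have h8 : 3 ≤ 2 * b ^ 2 - 1 := by
        have : 4 ≤ b ^ 2 := by nlinarith
        omega
      have hq := A.hq
      obtain ⟨r, hr, hrd⟩ := Nat.exists_prime_and_dvd (show 2 * b ^ 2 - 1 ≠ 1 by omega)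
      obtain ⟨s, hs, hsd⟩ := Nat.exists_prime_and_dvd (show 2 * b ^ 2 + 1 ≠ 1 by omega)
      have hrq : r ∣ p ^ f := by rw [← hq, h7]; exact hrd.mul_right _
      have hsq : s ∣ p ^ f := by rw [← hq, h7]; exact hsd.mul_left _
      have hrp := (Nat.prime_dvd_prime_iff_eq hr A.hp).1 (hr.dvd_of_dvd_pow hrq)
      have hsp := (Nat.prime_dvd_prime_iff_eq hs A.hp).1 (hs.dvd_of_dvd_pow hsq)
      rw [hrp] at hrd
      rw [hsp] at hsd
      have h9 : p ∣ (2 * b ^ 2 + 1) - (2 * b ^ 2 - 1) := Nat.dvd_sub hsd hrd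
      have h10 : (2 * b ^ 2 + 1) - (2 * b ^ 2 - 1) = 2 := by omega
      rw [h10] at h9
      exact A.hp2 ((Nat.prime_dvd_prime_iff_eq A.hp Nat.prime_two).1 h9)
    · obtain ⟨j, hj⟩ : ∃ j, q = 3 * j + 1 := ⟨q / 3, by omega⟩
      rw [h2, hj] at hN
      have h6 : 3 * (j * (j + 1)) = X * Y := by
        have h7 : N = 3 * (j * (j + 1)) + 1 := by
          have h8 : 3 * N = 3 * (3 * (j * (j + 1)) + 1) := by rw [hN]; ring
          omega
        have h9 : X ^ 2 = X * Y + X := by rw [hY]; ring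
        omega
      have hX2 : X = 2 ^ (4 * m + 2) := by
        rw [hX, hb, ← pow_mul, pow_add]
        ring
      have h7 : 2 ^ (4 * m + 2) ∣ j * (j + 1) := by
        have h8 : 2 ^ (4 * m + 2) ∣ 3 * (j * (j + 1)) := by
          rw [h6, ← hX2]
          exact dvd_mul_right _ _
        exact (Nat.Coprime.pow_left _ (by norm_num)).dvd_of_dvd_mul_left h8
      have hj0 : 0 < j := by
        have := A.h5
        omega
      have h9 : X ≤ j + 1 := by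
        rw [hX2]
        rcases pow_two_dvd h7 with h10 | h10
        · exact (Nat.le_of_dvd hj0 h10).trans (Nat.le_succ _)
        · exact Nat.le_of_dvd (by omega) h10
      have h11 : X * Y ≤ j * (j + 1) := by
        calc X * Y = Y * X := mul_comm _ _
          _ ≤ j * (j + 1) := Nat.mul_le_mul (by omega) h9
      have h12 : 0 < X * Y := Nat.mul_pos (by omega) (by omega)
      omega

end

end Cfsg.Agent.R2.Spec.X2
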