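import Cfsg.Agent.R2.Spec.X2.LWin

/-!
# Elimination in the window of `PSL_3(q)`: orthogonal groups, `PSL_m` (helper16)
-/

set_option autoImplicit false

namespace Cfsg.Agent.R2.Spec.X2

open Cfsg Cfsg.Agent.H360.Iso Cfsg.Agent.H182.Orth Cfsg.Agent.H182.Sign Cfsg.Agent.H403.Classify Cfsg.Agent.H948.UProd
open Cfsg.Agent.H948.UMain Cfsg.Agent.LieClassical.OrthForms

section

variable {T : Type*} [Group T] {n : ℕ}

/-- `PΩ⁺_{2m}(u)` -/
theorem LWin.not_plus (h : LWin T n) {u m : ℕ} (hm : 4 ≤ m) (hu : 2 ≤ u)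
    (hrow : (Odd m ∧ u = 2 ∧ n = 2 ^ m - 1 ∧ ∃ x : T, orderOf x = 3 * (2 ^ (m - 1) + 1)) ∨
    (Odd m ∧ Odd u ∧ n * (u - 1) = u ^ m - 1 ∧
      ∃ x : T, 4 * orderOf x = (u ^ (m - 1) + 1) * (u + 1)) ∨
    (Even m ∧ u = 2 ∧ n = 2 ^ (m - 1) - 1 ∧ ∃ x : T, orderOf x = 2 ^ m - 1) ∨
    (Even m ∧ u = 3 ∧ 2 * n = 3 ^ (m - 1) - 1 ∧ ∃ x : T, 2 * orderOf x = 3 ^ (m - 1) + 1)) : False := by
  have hb := h.big
  have hone : ∀ i, 1 ≤ u ^ i := fun i => Nat.one_le_pow _ _ (by omega)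
  obtain ⟨k, rfl⟩ : ∃ k, m = k + 1 := ⟨m - 1, by omega⟩
  rw [Nat.add_sub_cancel] at hrow
  rcases hrow with ⟨hmo, h2, hn, x, hx⟩ | ⟨hmo, huo, hn, x, hx⟩ | ⟨hme, h2, hn, x, hx⟩ | ⟨hme, h3, hn, x, hx⟩
  · -- `u = 2`, `m` odd
    have h3 : 2 ^ (k + 1) = 2 * 2 ^ k := by ring
    rw [h3] at hn
    exact h.not_above ⟨x, hx⟩ (by omega)
  · have hu3 : 3 ≤ u := by
      obtain ⟨t, ht⟩ := huo
      omega
    have hk4 : 4 ≤ k := by
      obtain ⟨t, ht⟩ := hmo
      omega
    set e := orderOf x with he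
    set U : ℤ := (u : ℤ) with hU
    set X : ℤ := (u : ℤ) ^ k with hX
    have hU3 : 3 ≤ U := by omega
    have e1 : (n : ℤ) * (U - 1) = U * X - 1 := by
      have h1 : ((n * (u - 1) : ℕ) : ℤ) = ((u ^ (k + 1) - 1 : ℕ) : ℤ) := by rw [hn]
      rw [Nat.cast_mul, Nat.cast_sub (by omega), Nat.cast_sub (hone _), Nat.cast_pow, Nat.cast_one] at h1
      rw [h1, pow_succ]
      ring
    have e2 : 4 * (e : ℤ) = (X + 1) * (U + 1) := by
      have h1 : ((4 * e : ℕ) : ℤ) = (((u ^ k + 1) * (u + 1) : ℕ) : ℤ) := by rw [hx]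
      push_cast at h1
      exact h1
    have hX81 : U ^ 4 ≤ X := pow_le_pow_right₀ (by linarith) hk4
    rcases Nat.lt_or_ge u 5 with hu5 | hu5
    · have hu3' : u = 3 := by
        obtain ⟨t, ht⟩ := huo
        omega
      have hU' : U = 3 := by omega
      rw [hU'] at e1 e2 hX81
      norm_num at hX81
      -- `n = (3X-1)/2`, `e = X + 1`
      refine h.below (m := e) (c := 2) (A := X - 3) ⟨x, rfl⟩ (by norm_num) (by linarith) (by linarith) (by linarith) ?_
      nlinarith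
    · have hU5 : 5 ≤ U := by omega
      have hX625 : 625 ≤ X := by
        have := pow_le_pow_left₀ (by norm_num : (0:ℤ) ≤ 5) hU5 4
        norm_num at this
        linarith
      have h24 : 4 ≤ U ^ 2 - 4 * U - 1 := by nlinarith
      refine h.above (m := e) (c := 4 * (U - 1)) (A := (U ^ 2 - 4 * U - 1) * X + (U ^ 2 + 3)) ⟨x, rfl⟩ (by linarith)
        (by nlinarith) ?_
      have h1 : 4 * (U - 1) * (e : ℤ) = (U - 1) * (4 * (e : ℤ)) := by ring
      have h2 : 4 * (U - 1) * (n : ℤ) = 4 * ((n : ℤ) * (U - 1)) := by ring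
      rw [h1, h2, e1, e2]
      ring
  · have h3 : 2 ^ (k + 1) = 2 * 2 ^ k := by ring
    rw [h3] at hx
    have h4 := Nat.one_le_pow k 2 (by norm_num)
    exact h.not_above ⟨x, hx⟩ (by omega)
  · exact h.not_near (m := n + 1) ⟨x, by omega⟩ (by omega) (by omega) (by omega)

/-- `PΩ⁻_{2m}(u)` -/
theorem LWin.not_minus (h : LWin T n) {u m : ℕ} (hm : 4 ≤ m) (hu : 2 ≤ u)
    (hrow : (Even m ∧ Even u ∧ n = u ^ m + 1 ∧
      ∃ x : T, orderOf x = (u ^ (m - 1) - 1) * (u + 1)) ∨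
    (Even m ∧ Odd u ∧ 2 * n = u ^ m + 1 ∧
      ∃ x : T, 4 * orderOf x = (u ^ (m - 1) - 1) * (u + 1)) ∨
    (Odd m ∧ Odd u ∧ n * (u + 1) = u ^ m + 1 ∧
      ∃ x : T, 2 * orderOf x = u ^ (m - 1) - 1) ∨
    (Odd m ∧ u = 2 ∧ n = 2 ^ (m - 1) + 1 ∧ ∃ x : T, orderOf x = 2 ^ m + 1) ∨
    (u = 3 ∧ ∃ A B a b : ℕ, Odd A ∧ Odd B ∧ 3 ^ m + 1 = a * A ∧ 3 ^ (m - 1) + 1 = b * B ∧
      ((Even m ∧ a = 2 ∧ b = 4) ∨ (Odd m ∧ a = 4 ∧ b = 2)) ∧
      ((n = B ∧ ∃ x : T, orderOf x = A) ∨ n = A * B))) : False := by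
  have hb := h.big
  have hone : ∀ i, 1 ≤ u ^ i := fun i => Nat.one_le_pow _ _ (by omega)
  obtain ⟨k, rfl⟩ : ∃ k, m = k + 1 := ⟨m - 1, by omega⟩
  rw [Nat.add_sub_cancel] at hrow
  rcases hrow with ⟨hme, hue, hn, x, hx⟩ | ⟨hme, huo, hn, x, hx⟩ | ⟨hmo, huo, hn, x, hx⟩ | ⟨hmo, h2, hn, x, hx⟩ |
    ⟨h3, A, B, a, b, hA, hB, ha, hb', hab, hn⟩
  · refine h.not_above ⟨x, hx⟩ ?_
    have hk3 : 3 ≤ k := by omega
    obtain ⟨Y, hY⟩ : ∃ Y, u ^ k = Y + 1 := ⟨u ^ k - 1, by have := hone k; omega⟩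
    have h1 : u ^ 3 ≤ u ^ k := Nat.pow_le_pow_right (by omega) hk3
    have h4 : u + 3 ≤ u ^ 3 := by
      obtain ⟨t, rfl⟩ : ∃ t, u = t + 2 := ⟨u - 2, by omega⟩
      nlinarith [sq_nonneg t]
    rw [hn, pow_succ, hY, Nat.add_sub_cancel]
    nlinarith
  · -- `u` odd, `m` even
    have hu3 : 3 ≤ u := by
      obtain ⟨t, ht⟩ := huo
      omega
    set e := orderOf x with he
    set U : ℤ := (u : ℤ) with hU
    set X : ℤ := (u : ℤ) ^ k with hX
    have hU3 : 3 ≤ U := by omega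
    have e1 : 2 * (n : ℤ) = U * X + 1 := by
      have h1 : ((2 * n : ℕ) : ℤ) = ((u ^ (k + 1) + 1 : ℕ) : ℤ) := by rw [hn]
      push_cast at h1
      rw [h1, pow_succ]
      ring
    have e2 : 4 * (e : ℤ) = (X - 1) * (U + 1) := by
      have h1 : ((4 * e : ℕ) : ℤ) = (((u ^ k - 1) * (u + 1) : ℕ) : ℤ) := by rw [hx]
      rw [Nat.cast_mul, Nat.cast_mul, Nat.cast_sub (hone _)] at h1
      push_cast at h1
      exact h1
    have hX27 : U ^ 3 ≤ X := pow_le_pow_right₀ (by linarith) (by omega)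
    have hX9 : 9 * U ≤ X := by
      have h7 : 9 ≤ U ^ 2 := by nlinarith
      have h8 : 9 * U ≤ U ^ 2 * U := mul_le_mul_of_nonneg_right h7 (by linarith)
      have h9 : U ^ 2 * U = U ^ 3 := by ring
      linarith
    have hX0 : 0 < X := by linarith
    refine h.below (m := e) (c := 4) (A := (U - 1) * X + U + 3) ⟨x, rfl⟩ (by norm_num) (by nlinarith) ?_ ?_ ?_
    · linear_combination e2 - 2 * e1
    · nlinarith
    · have h5 : 4 * (n : ℤ) * 4 ^ 2 = 32 * (2 * (n : ℤ)) := by ring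
      rw [h5, e1]
      have h6 : 2 * X + 6 ≤ (U - 1) * X + U + 3 := by nlinarith
      rcases Nat.lt_or_ge u 4 with hu4 | hu4
      · have hU' : U = 3 := by omega
        rw [hU'] at hX27 ⊢
        norm_num at hX27
        nlinarith
      · have hU4 : 4 ≤ U := by omega
        have h7 : 3 * X ≤ (U - 1) * X + U + 3 := by nlinarith
        have h8 : (3 * X) ^ 2 ≤ ((U - 1) * X + U + 3) ^ 2 := pow_le_pow_left₀ (by linarith) h7 2
        refine le_trans ?_ h8
        have h9 : 9 * (9 * U) * X ≤ 9 * X * X := by nlinarith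
        nlinarith
  · -- `u` odd, `m` odd
    have hu3 : 3 ≤ u := by
      obtain ⟨t, ht⟩ := huo
      omega
    have hk4 : 4 ≤ k := by
      obtain ⟨t, ht⟩ := hmo
      omega
    set e := orderOf x with he
    set U : ℤ := (u : ℤ) with hU
    set X : ℤ := (u : ℤ) ^ k with hX
    have hU3 : 3 ≤ U := by omega
    have e1 : (n : ℤ) * (U + 1) = U * X + 1 := by
      have h1 : ((n * (u + 1) : ℕ) : ℤ) = ((u ^ (k + 1) + 1 : ℕ) : ℤ) := by rw [hn]
      push_cast at h1
      rw [h1, pow_succ]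
      ring
    have e2 : 2 * (e : ℤ) = X - 1 := by
      have h1 : ((2 * e : ℕ) : ℤ) = ((u ^ k - 1 : ℕ) : ℤ) := by rw [hx]
      rw [Nat.cast_mul, Nat.cast_sub (hone _)] at h1
      push_cast at h1
      exact h1
    have hX81 : U ^ 4 ≤ X := pow_le_pow_right₀ (by linarith) hk4
    have hX9 : 9 * U ^ 2 ≤ X := by
      have h7 : 9 ≤ U ^ 2 := by nlinarith
      have h8 : 9 * U ^ 2 ≤ U ^ 2 * U ^ 2 := mul_le_mul_of_nonneg_right h7 (by positivity)
      have h9 : U ^ 2 * U ^ 2 = U ^ 4 := by ring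
      linarith
    have hX0 : 0 < X := by nlinarith
    refine h.below (m := e) (c := 2 * (U + 1)) (A := (U - 1) * X + U + 3) ⟨x, rfl⟩ (by linarith) (by nlinarith)
      ?_ ?_ ?_
    · linear_combination (U + 1) * e2 - 2 * e1
    · have h1 : 2 * (2 * (U + 1) * (e : ℤ)) = 2 * (U + 1) * (X - 1) := by rw [← e2]; ring
      have h2 : 2 * (U + 1) * (n : ℤ) = 2 * (U * X + 1) := by rw [← e1]; ring
      rw [h1, h2]
      nlinarith
    · have h1 : 4 * (n : ℤ) * (2 * (U + 1)) ^ 2 = 16 * (U + 1) * ((n : ℤ) * (U + 1)) := by ring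
      rw [h1, e1]
      have h6 : 2 * X ≤ (U - 1) * X + U + 3 := by nlinarith
      have h8 : (2 * X) ^ 2 ≤ ((U - 1) * X + U + 3) ^ 2 := pow_le_pow_left₀ (by linarith) h6 2
      refine le_trans ?_ h8
      have h9 : 16 * (U + 1) * (U * X + 1) ≤ 32 * U ^ 2 * X := by
        nlinarith [mul_pos hX0 (by linarith : (0:ℤ) < U)]
      refine h9.trans ?_
      nlinarith
  · have h3 : 2 ^ (k + 1) = 2 * 2 ^ k := by ring
    rw [h3] at hx
    have h4 := Nat.one_le_pow k 2 (by norm_num)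
    exact h.not_above ⟨x, hx⟩ (by omega)
  · -- `u = 3`
    have h4 : 3 ^ (k + 1) = 3 * 3 ^ k := by ring
    have h5 : 3 ∣ 3 ^ k := dvd_pow_self 3 (by omega)
    rcases hab with ⟨hme, rfl, rfl⟩ | ⟨hmo, rfl, rfl⟩
    · rcases hn with ⟨hn, x, hx⟩ | hn
      · exact h.not_above ⟨x, hx⟩ (by omega)
      · have h6 := h.mod_dvd (d := A) ⟨B, hn⟩
        omega
    · rcases hn with ⟨hn, x, hx⟩ | hn
      · have h6 := h.mod_dvd (d := B) (by rw [hn])
        omega
      · have h6 := h.mod_dvd (d := B) (Dvd.intro_left _ hn.symm)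
        omega

theorem LWin.not_isPOmegaPlus (h : LWin T n) : ¬ IsPOmegaPlus T := by
  rintro ⟨F, _, _, m, hm, ⟨e⟩⟩
  have hcard := Cfsg.Agent.S0293.result (F := F) rfl m hm
  simp only [← Nat.card_eq_fintype_card] at hcard
  have h' := h.congr e
  rw [← coe_plusForm] at hcard h'
  have h1 := plus_row (sg_plusForm (F := F) m) hm hcard h'.iso
  exact h'.not_plus hm Finite.one_lt_card h1

theorem LWin.not_isPOmegaMinus (h : LWin T n) : ¬ IsPOmegaMinus T := by
  rintro ⟨F, _, _, m, a, b, hm, hab, ⟨e⟩⟩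
  have hcard := Cfsg.Agent.S0294.result (F := F) rfl m hm a b hab
  simp only [← Nat.card_eq_fintype_card] at hcard
  have hs := sg_minusForm (F := F) (m - 1) hab
  rw [Nat.sub_add_cancel (by omega)] at hs
  have h' := h.congr e
  rw [← coe_minusForm] at hcard h'
  have h1 := minus_row hs hm hcard h'.iso
  exact h'.not_minus hm Finite.one_lt_card h1

theorem LWin.not_psl2 {F : Type*} [Field F] [Fintype F] (h4 : 4 ≤ Fintype.card F) :
    ¬ LWin (Matrix.ProjectiveSpecialLinearGroup (Fin 2) F) n := by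
  intro h
  obtain ⟨p, hp⟩ := CharP.exists F
  have hpf : Fact p.Prime := ⟨CharP.char_is_prime F p⟩
  obtain ⟨hA, hB, hk⟩ := psl2_row p h4 h.iso
  have hb := h.big
  set q := Fintype.card F with hq
  obtain ⟨t, hpr, ht⟩ := FiniteField.card F p
  rw [← hq] at ht
  have ht0 := t.pos
  rcases Nat.even_or_odd q with he | ho
  · have hg : Nat.gcd 2 (q - 1) = 1 := Nat.coprime_two_left.2 (Nat.Even.sub_odd (by omega) he odd_one)
    rw [hg, Nat.div_one, Nat.div_one] at hk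
    rw [hg, Nat.div_one] at hA hB
    rcases hk with h1 | h1 | h1
    · exact h.not_near hB (by omega) (by omega) (by omega)
    · exact h.not_near hA (by omega) (by omega) (by omega)
    · have h2 : p = 2 := by
        have h3 : 2 ∣ p ^ (t : ℕ) := ht ▸ even_iff_two_dvd.1 he
        exact ((Nat.prime_dvd_prime_iff_eq Nat.prime_two hpr).1 (Nat.prime_two.dvd_of_dvd_pow h3)).symm
      omega
  · obtain ⟨a, ha⟩ := ho
    have hg : Nat.gcd 2 (q - 1) = 2 := Nat.gcd_eq_left ⟨a, by omega⟩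
    rw [hg] at hk hA hB
    have e1 : (q - 1) / 2 = a := by omega
    have e2 : (q + 1) / 2 = a + 1 := by omega
    rw [e1] at hA hk
    rw [e2] at hB hk
    rcases hk with h1 | h1 | h1
    · exact h.not_near hB (by omega) (by omega) (by omega)
    · exact h.not_near hA (by omega) (by omega) (by omega)
    · -- `n = p`
      rcases Nat.lt_or_ge 1 (t : ℕ) with h2 | h2
      · have h3 : n ^ 2 ≤ q := by
          rw [ht, h1]
          exact Nat.pow_le_pow_right hpr.pos h2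
        have h6 : 31 * n ≤ n ^ 2 := by nlinarith
        exact h.not_above hB (by omega)
      · have h3 : (t : ℕ) = 1 := by omega
        rw [h3, pow_one] at ht
        refine h.not_low hB (δ := a) (by omega) (by omega) (by omega) (Or.inr ?_)
        have h5 : n = 2 * a + 1 := by omega
        rw [h5]
        nlinarith

/-- linear groups: only `PSL_3` -/
theorem LWin.isPSL (h : LWin T n) (hS : IsPSL T) : ∃ (F : Type) (_ : Field F) (_ : Fintype F),
    Nonempty (T ≃* Matrix.ProjectiveSpecialLinearGroup (Fin 3) F) ∧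
    n * Nat.gcd 3 (Nat.card F - 1) * (Nat.card F - 1) = Nat.card F ^ 3 - 1 ∧
      ∃ x : T, orderOf x * Nat.gcd 3 (Nat.card F - 1) = Nat.card F ^ 2 - 1 := by
  obtain ⟨F, iF, iFt, m, hm, h2, ⟨e⟩⟩ := hS
  have h' := h.congr e
  rcases Nat.eq_or_lt_of_le hm with hm2 | hm3
  · subst hm2
    exact (LWin.not_psl2 (h2 rfl) h').elim
  · have hq : 2 ≤ Nat.card F := Finite.one_lt_card
    rcases psl_row hm3 h'.iso with ⟨h1, h3⟩ | ⟨h0, h1, h3⟩
    · rcases Nat.eq_or_lt_of_le hm3 with hm4 | hm4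
      · have hm4' : m = 3 := hm4.symm
        subst hm4'
        refine ⟨F, iF, iFt, ⟨e⟩, h1, ?_⟩
        obtain ⟨x, hx⟩ := h3
        refine ⟨e.symm x, ?_⟩
        have h4 : orderOf (e.symm x) = orderOf x := orderOf_injective e.symm.toMonoidHom e.symm.injective x
        rw [h4]
        exact hx
      · exfalso
        refine h'.not_psl_one hq ?_ hm4 rfl h1 h3 ?_
        · rw [Nat.card_eq_fintype_card]
          exact FiniteField.isPrimePow_card F
        · intro hu hmo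
          obtain ⟨k, rfl⟩ : ∃ k, m = 2 + k := ⟨m - 2, by omega⟩
          rw [Nat.add_sub_cancel_left]
          have hk : Odd k := by
            rcases Nat.even_or_odd k with h4 | h4
            · exact absurd hmo (Nat.not_odd_iff_even.2 ((by decide : Even 2).add h4))
            · exact h4
          refine exists_two (F := F) hu (a := 2) (b := k) (by norm_num) (by omega) ?_
          norm_num
          rw [Nat.Prime.coprime_iff_not_dvd Nat.prime_three]
          intro hd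
          obtain ⟨j, rfl⟩ := hk
          have h5 : 2 ^ (2 * j + 1) % 3 = 2 := by
            rw [pow_succ, pow_mul, Nat.mul_mod, Nat.pow_mod]
            norm_num
          generalize 2 ^ (2 * j + 1) = z at hd h5
          omega
    · exact (h'.not_psl_two hq hm3 h1 h3).elim

end

end Cfsg.Agent.R2.Spec.X2
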