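import Cfsg.Agent.R2.Spec.X2.LSpor
import Cfsg.Agent.R2.Spec.X2.LExc
import Cfsg.Agent.R2.Spec.X2.LOrth
import Cfsg.Agent.R2.Spec.X2.LElimU
import Cfsg.Agent.H363.PslCard

/-!
# The known simple groups in the window of `PSL_3(q)` (helper16)
-/

set_option autoImplicit false

namespace Cfsg.Agent.R2.Spec.X2

open Cfsg

/-- **A known simple group in the window of `PSL_3(q)` is `PSL_3(q)`.** -/
theorem LCtx.main {T : Type*} [Group T] [Finite T] {p f q d N E P : ℕ} (h : LCtx T p f q d N E P) (h7 : q ≠ 7)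
    (h11 : q ≠ 11) (hk : IsKnownSimple' T) (hna : ¬ IsMulCommutative T) {F : Type*} [Field F] [Fintype F]
    (hF : Fintype.card F = q) : Nonempty (T ≃* Matrix.ProjectiveSpecialLinearGroup (Fin 3) F) := by
  have hW := h.win
  rcases hk with h1 | h1 | h1 | h1 | h1 | h1 | h1 | h1 | h1 | h1
  · exfalso
    apply hna
    have hp : Fact (Nat.card T).Prime := ⟨h1⟩
    have := isCyclic_of_prime_card (α := T) rfl
    exact ⟨⟨fun a b => by
      letI := IsCyclic.commGroup (α := T)
      exact mul_comm a b⟩⟩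
  · exact absurd h1 hW.not_isAlternating
  · obtain ⟨F', _, _, ⟨e⟩, hn, hx⟩ := hW.isPSL h1
    have huq := h.eq_of_psl (u := Nat.card F') Finite.one_lt_card hn hx
    obtain ⟨e'⟩ := H363.PslCard.psl_of_card (n := Fin 3) (F := F') (F' := F)
      (by rw [← Nat.card_eq_fintype_card, huq, hF])
    exact ⟨e.trans e'⟩
  · exact absurd h1 hW.not_isPSp
  · exact absurd h1 hW.not_isPSU
  · exact absurd h1 hW.not_isPOmegaOdd
  · exact absurd h1 hW.not_isPOmegaPlus
  · exact absurd h1 hW.not_isPOmegaMinus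
  · rcases h1 with h1 | h1 | h1 | h1 | h1 | h1 | h1 | h1 | h1 | h1 | h1
    · exact absurd h1 hW.not_isoChevG2
    · exact absurd h1 hW.not_isoF4
    · exact absurd h1 hW.not_isoE6
    · exact absurd h1 hW.not_isoE7
    · exact absurd h1 hW.not_isoE8
    · exact absurd h1 h.not_iso2E6
    · exact absurd h1 hW.not_iso3D4
    · exact absurd h1 hW.not_isoSuzuki
    · exact absurd h1 hW.not_isoRee
    · exact absurd h1 h.not_iso2F4
    · exact absurd (Or.inr h1) (h.not_sporadic h7 h11)
  · exact absurd (Or.inl h1) (h.not_sporadic h7 h11)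

end Cfsg.Agent.R2.Spec.X2
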