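import Cfsg.Agent.R2.Spec.X2.LCtx
import Cfsg.Agent.H360.Iso.Spor

/-!
# No sporadic group has the isolated number of `PSL_3(q)`, `q ≠ 11` (helper16)
-/

set_option autoImplicit false

namespace Cfsg.Agent.R2.Spec.X2

open Cfsg Cfsg.Agent.H360.Iso

/-- the isolated number -/
def mm (q : ℕ) : ℕ := (q ^ 2 + q + 1) / Nat.gcd 3 (q - 1)

theorem LA.gcd {p f q d N E P : ℕ} (A : LA p f q d N E P) : Nat.gcd 3 (q - 1) = d := by
  have h5 := A.h5
  rcases A.hd with ⟨h1, h2⟩ | ⟨h1, h2⟩
  · rw [h1]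
    have : ¬ 3 ∣ q - 1 := by omega
    exact (Nat.Prime.coprime_iff_not_dvd Nat.prime_three).2 this
  · rw [h1]
    exact Nat.gcd_eq_left (by omega)

theorem LA.mm {p f q d N E P : ℕ} (A : LA p f q d N E P) : mm q = N := by
  unfold X2.mm
  rw [A.gcd, ← A.hN]
  exact Nat.mul_div_cancel_left _ A.dpos

theorem LA.mem_Qs {p f q d N E P : ℕ} (A : LA p f q d N E P) (h : N ∣ 7 ^ 6 * 13 ^ 3 * 19 * 31 * 37 * 43 * 67) :
    q + 1 ∈ Qs := by
  have h1 := allD_spec chk_all h
  simp only [Bool.and_eq_true] at h1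
  have hN := A.hN
  have e2 : 2 * (q + 1) - 1 = 2 * q + 1 := by omega
  rcases A.d13 with h2 | h2
  · refine chk_spec h1.1 (by omega) ?_
    rw [e2]
    rw [h2, one_mul] at hN
    rw [hN]
    have : (2 * q + 1) * (2 * q + 1) + 3 = 4 * (q ^ 2 + q + 1) := by ring
    omega
  · refine chk_spec h1.2 (by omega) ?_
    rw [e2]
    rw [h2] at hN
    have : (2 * q + 1) * (2 * q + 1) + 3 = 4 * (q ^ 2 + q + 1) := by ring
    omega

theorem final_check3 : ∀ n ∈ H603.SporElim.L, ∀ r ∈ Qs, 5 < r → r % 2 = 0 → r ≠ 8 → r ≠ 12 → mm (r - 1) ∣ n →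
    ∃ s ∈ [5, 7, 11, 13, 17, 19, 23, 29, 31, 41, 47, 59, 71], s ∣ n ∧
      ¬ s ∣ (r - 1) * ((r - 1) ^ 2 - 1) * mm (r - 1) := by decide +kernel

/-- a prime divisor of the order -/
theorem LCtx.prime_dvd {T : Type*} [Group T] [Finite T] {p f q d N E P s : ℕ} (h : LCtx T p f q d N E P)
    (hs : s.Prime) (hd : s ∣ Nat.card T) : s ∣ q * (q ^ 2 - 1) * N := by
  have := Fact.mk hs
  obtain ⟨x, hx⟩ := exists_prime_orderOf_dvd_card' s hd
  have A := h.A
  have h1 := h.om x
  rw [hx] at h1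
  rcases h1 with h1 | h1 | h1 | h1
  · exact h1.mul_left _
  · refine Dvd.dvd.mul_right (Dvd.dvd.mul_left ?_ _) _
    rw [← A.hE]
    exact h1.mul_left _
  · refine Dvd.dvd.mul_right (Dvd.dvd.mul_left ?_ _) _
    rw [A.sq_sub]
    exact h1.mul_right _
  · have h2 : s ∣ p * (q - 1) := by
      rw [← A.hP]
      exact h1.mul_left _
    rcases hs.dvd_mul.1 h2 with h3 | h3
    · exact ((h3.trans A.dvd_q).mul_right _).mul_right _
    · refine Dvd.dvd.mul_right (Dvd.dvd.mul_left ?_ _) _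
      rw [A.sq_sub]
      exact h3.mul_right _

theorem LCtx.not_sporadic {T : Type*} [Group T] [Finite T] {p f q d N E P : ℕ} (h : LCtx T p f q d N E P)
    (h7 : q ≠ 7) (h11 : q ≠ 11) : ¬ (IsSporadicGroup T ∨ Lie.IsoTits T) := by
  intro hS
  have hmem := H603.SporElim.card_mem hS
  have A := h.A
  have h5 := A.h5
  have hdvd := h.iso.dvd_card
  have hq : q + 1 ∈ Qs := by
    refine A.mem_Qs (dvd_of_primes (hdvd.trans (dvd_check _ hmem)) fun r hr hrn hd => ?_)
    have h6 := A.prime_mod hr hrn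
    have h7 := h.iso.ne_two hrn
    have h8 := hr.dvd_of_dvd_pow hd
    have key : ∀ {a b : ℕ}, r ∣ a * b → b.Prime → b % 3 ≠ 1 → r ∣ a := by
      intro a b hab hb hb3
      rcases (Nat.Prime.dvd_mul hr).1 hab with h9 | h9
      · exact h9
      · exact absurd ((Nat.prime_dvd_prime_iff_eq hr hb).1 h9 ▸ h6) hb3
    have h9 := key h8 (by norm_num) (by norm_num)
    have h10 := key h9 (by norm_num) (by norm_num)
    have h11 := key h10 (by norm_num) (by norm_num)
    have h12 := key h11 (by norm_num) (by norm_num)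
    have h13 := key h12 (by norm_num) (by norm_num)
    have h14 := key h13 (by norm_num) (by norm_num)
    have h15 := key h14 (by norm_num) (by norm_num)
    have h16 := key h15 (by norm_num) (by norm_num)
    have h17 := key h16 (by norm_num) (by norm_num)
    have h18 := key h17 (by norm_num) (by norm_num)
    exact h7 ((Nat.prime_dvd_prime_iff_eq hr Nat.prime_two).1 h18)
  obtain ⟨j, hj⟩ := A.qodd
  obtain ⟨s, hs, hsN, hsn⟩ := final_check3 _ hmem (q + 1) hq (by omega) (by omega) (by omega) (by omega)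
    (by rw [Nat.add_sub_cancel, A.mm]; exact hdvd)
  rw [Nat.add_sub_cancel, A.mm] at hsn
  have hsp : s.Prime := by
    simp only [List.mem_cons, List.not_mem_nil, or_false] at hs
    rcases hs with rfl | rfl | rfl | rfl | rfl | rfl | rfl | rfl | rfl | rfl | rfl | rfl | rfl <;> norm_num
  exact hsn (h.prime_dvd hsp hsN)

end Cfsg.Agent.R2.Spec.X2
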